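import Cfsg.Agent.HeTwoBCentralizer.Data

/-! The executable checks for the centraliser of a 2B involution of He. -/

set_option autoImplicit false

namespace CfsgLib.HeTwoB

open H29.CosetCert (Tr allIn runR)

/-- Entry `c` of a vector of 12-bit fields. -/
def pk (v c : ℕ) : ℕ := (v >>> (12 * c)) % 4096

/-- The permutation of letter `x`. -/
def perm (x c : ℕ) : ℕ := pk (Data.perms.getD x 0) c

/-- First generator as a word. -/
def wa : List ℕ := [5, 3, 2, 3, 5, 1, 0]
/-- Second generator as a word. -/
def wb : List ℕ := [6, 3, 2, 3, 6, 1, 0]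

/-- The record of element `i`. -/
def rec' (i : ℕ) : ℕ :=
  (Data.recs.get (i / 16) >>> (131 * (i % 16))) % 2722258935367507707706996859454145691648

/-- The image of base point `k` under element `i`. -/
def tup (i k : ℕ) : ℕ := (rec' i >>> (12 * k)) % 4096

/-- Row `k` of the matrix of element `i`. -/
def row (i k : ℕ) : ℕ := (rec' i >>> (60 + 5 * k)) % 32

/-- The product of a generator with element `i`. -/
def step (i : ℕ) (s : Bool) : ℕ := (rec' i >>> (bif s then 100 else 85)) % 32768

/-- The index from which element `i` is reached, times two, plus the generator. -/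
def par (i : ℕ) : ℕ := (rec' i >>> 115) % 65536

/-- Rows of the generator matrices. -/
def genRow (s : Bool) (k : ℕ) : ℕ := ((bif s then Data.rowsB else Data.rowsA) >>> (5 * k)) % 32

/-- Packed permutation of a generator. -/
def genPerm (s : Bool) : ℕ := bif s then Data.gb else Data.ga

/-- One row of a product, the left row selecting rows of the right factor. -/
def comb (r r0 r1 r2 r3 r4 : ℕ) : ℕ :=
  (bif r.testBit 0 then r0 else 0) ^^^ (bif r.testBit 1 then r1 else 0) ^^^
    (bif r.testBit 2 then r2 else 0) ^^^ (bif r.testBit 3 then r3 else 0) ^^^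
    (bif r.testBit 4 then r4 else 0)

/-- The check on one generator at element `i`. -/
def stepOK (i : ℕ) (s : Bool) : Bool :=
  Nat.blt (step i s) 21504 &&
    allIn (fun k => tup (step i s) k == pk (genPerm s) (tup i k)) 0 5 &&
    allIn (fun k => row (step i s) k ==
      comb (genRow s k) (row i 0) (row i 1) (row i 2) (row i 3) (row i 4)) 0 5

/-- The base points. -/
def bpt (k : ℕ) : ℕ := [0, 1, 258, 738, 1728].getD k 0

/-- The check at element `i`. -/
def elemOK (i : ℕ) : Bool :=
  stepOK i false && stepOK i true &&
    (i == 0 ||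
      (Nat.blt (par i / 2) i && step (par i / 2) (par i % 2 == 1) == i &&
        !(allIn (fun k => tup i k == bpt k) 0 5) &&
        !(allIn (fun k => row i k == 2 ^ k) 0 5)))

/-- Row `k` of the centraliser matrix with parameters `c`. -/
def param (c k : ℕ) : ℕ :=
  match k with
  | 0 => 2 * (c % 16) + 1
  | 1 => 2
  | j + 2 => 4 * ((c >>> (7 + 3 * j)) % 8) + 2 * ((c >>> (4 + j)) % 2)

/-- The block row `j` is orthogonal to the nonzero vector `v`. -/
def orth (c j v : ℕ) : Bool :=
  let r := ((c >>> (7 + 3 * j)) % 8) &&& v
  r == 0 || r == 3 || r == 5 || r == 6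

/-- The parameters `c` are singular or are tabulated. -/
def paramOK (c : ℕ) : Bool :=
  let i := (Data.idx.get (c / 64) >>> (15 * (c % 64))) % 32768
  (Nat.blt i 21504 && allIn (fun k => row i k == param c k) 0 5) ||
    !(allIn (fun v => !(orth c 0 v && orth c 1 v && orth c 2 v)) 1 7)

/-- The colour of a point relative to node `k` of the tree of words. -/
def colour (k y : ℕ) : ℕ := ((Data.cols.getD k 0) >>> (3 * y)) % 8

/-- The node check. -/
def nodeOK (k : ℕ) : Bool :=
  let p := Data.parN.getD k 0
  let x := Data.letN.getD k 0
  Nat.blt p k && perm x (Data.pts.getD p 0) == Data.pts.getD k 0 &&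
    allIn (fun y => colour k y == colour p (perm x y)) 0 2058

/-- The colours of `y` relative to the first `m` anchors. -/
def sig (m y : ℕ) : ℕ :=
  2 * (((Data.anchNode).take m).foldl (fun s k => 8 * s + colour k y) 0) +
    (bif pk Data.gz y == y then 1 else 0)

/-- Every point coloured as the base point of level `lv` has a witness. -/
def levelOK (lv m : ℕ) (w : List ℕ) : Bool :=
  allIn (fun y => !(sig m y == sig m (bpt lv)) ||
    w.any (fun i => Nat.blt i 21504 && allIn (fun k => tup i k == bpt k) 0 lv && tup i lv == y)) 0 2058

/-- The anchor number `m` is determined by its colours. -/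
def uniqueOK (m : ℕ) : Bool :=
  allIn (fun y => !(sig m y == sig m (Data.anch.getD m 0)) || y == Data.anch.getD m 0) 0 2058

/-- All points are separated by the anchors. -/
def separatedOK : Bool :=
  allIn (fun i => Nat.blt (sig 18 (pk Data.order i)) (sig 18 (pk Data.order (i + 1)))) 0 2057 &&
    allIn (fun y => Nat.blt (pk Data.pos y) 2058 && pk Data.order (pk Data.pos y) == y) 0 2058

end CfsgLib.HeTwoB
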