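import Cfsg.Agent.HeTwoBCentralizer.Base

/-! Checks of the colours and levels. -/

set_option autoImplicit false

namespace CfsgLib.HeTwoB

open H29.CosetCert (allIn runR)

theorem nodes_ok : allIn nodeOK 1 102 = true := by decide +kernel
theorem level0 : levelOK 0 0 Data.wit0 = true := by decide +kernel
theorem level1 : levelOK 1 1 Data.wit1 = true := by decide +kernel
theorem level2 : levelOK 2 2 Data.wit2 = true := by decide +kernel
theorem level3 : levelOK 3 4 Data.wit3 = true := by decide +kernel
theorem level4 : levelOK 4 6 Data.wit4 = true := by decide +kernel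
theorem unique_ok : (uniqueOK 8 && uniqueOK 10 && uniqueOK 12 && uniqueOK 14 && uniqueOK 16) = true := by
  decide +kernel
theorem separated : separatedOK = true := by decide +kernel
theorem gens_ok : allIn (fun y => pk Data.ga y == runR perm wa y && pk Data.gb y == runR perm wb y &&
    pk Data.gz y == perm 3 y &&
    pk Data.gz (pk Data.ga y) == pk Data.ga (pk Data.gz y) &&
    pk Data.gz (pk Data.gb y) == pk Data.gb (pk Data.gz y)) 0 2058 = true := by decide +kernel

end CfsgLib.HeTwoB
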