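import Cfsg.Agent.HeTwoBCentralizer.Base

/-! Matrices over GF(2) from rows, and the centraliser of a transvection in SL(5, 2). -/

set_option autoImplicit false

namespace CfsgLib.HeTwoB

/-- The matrix with given rows. -/
def rowsMat (r : ℕ → ℕ) : Matrix (Fin 5) (Fin 5) (ZMod 2) :=
  Matrix.of fun i j => if (r i).testBit j then 1 else 0

theorem rowsMat_congr {r r' : ℕ → ℕ} (h : ∀ k < 5, r k = r' k) : rowsMat r = rowsMat r' := by
  ext i j
  simp only [rowsMat, Matrix.of_apply, h i i.2]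

theorem testBit_cond (b : Bool) (r j : ℕ) : (bif b then r else 0).testBit j = (b && r.testBit j) := by
  cases b <;> simp

theorem bool_sum : ∀ a0 a1 a2 a3 a4 b0 b1 b2 b3 b4 : Bool,
    ((if (((((a0 && b0) ^^ (a1 && b1)) ^^ (a2 && b2)) ^^ (a3 && b3)) ^^ (a4 && b4)) = true
        then 1 else 0) : ZMod 2) =
      (if a0 = true then 1 else 0) * (if b0 = true then 1 else 0) +
      (if a1 = true then 1 else 0) * (if b1 = true then 1 else 0) +
      (if a2 = true then 1 else 0) * (if b2 = true then 1 else 0) +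
      (if a3 = true then 1 else 0) * (if b3 = true then 1 else 0) +
      (if a4 = true then 1 else 0) * (if b4 = true then 1 else 0) := by
  decide +kernel

theorem rowsMat_comb (a r : ℕ → ℕ) :
    rowsMat (fun k => comb (a k) (r 0) (r 1) (r 2) (r 3) (r 4)) = rowsMat a * rowsMat r := by
  ext i j
  rw [Matrix.mul_apply, Fin.sum_univ_five]
  simp only [rowsMat, Matrix.of_apply, comb, Nat.testBit_xor, testBit_cond]
  exact bool_sum _ _ _ _ _ _ _ _ _ _

theorem ite_testBit_ofBits (f : Fin 16 → Bool) (k : ℕ) (hk : k < 16) :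
    (Nat.ofBits f).testBit k = f ⟨k, hk⟩ := Nat.testBit_ofBits_lt f k hk

theorem zmod_two (a : ZMod 2) : (if a = 1 then 1 else 0 : ZMod 2) = a := by
  revert a; decide

theorem orth_bits : ∀ r v : ℕ, r < 8 → v < 8 →
    (r &&& v == 0 || r &&& v == 3 || r &&& v == 5 || r &&& v == 6) =
      !((r.testBit 0 && v.testBit 0) ^^ (r.testBit 1 && v.testBit 1) ^^ (r.testBit 2 && v.testBit 2)) := by
  intro r v hr hv
  interval_cases r <;> interval_cases v <;> rfl

theorem orth_eq (c j v : ℕ) (hv : v < 8) : orth c j v =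
    !((c.testBit (7 + 3 * j) && v.testBit 0) ^^ (c.testBit (8 + 3 * j) && v.testBit 1) ^^
      (c.testBit (9 + 3 * j) && v.testBit 2)) := by
  rw [orth, orth_bits _ _ (Nat.mod_lt _ (by norm_num)) hv]
  simp only [show (8 : ℕ) = 2 ^ 3 by rfl, Nat.testBit_mod_two_pow, Nat.testBit_shiftRight]
  simp only [show (2 : ℕ) ^ 3 = 8 by rfl, show 8 + 3 * j = 7 + 3 * j + 1 by omega,
    show 9 + 3 * j = 7 + 3 * j + 2 by omega, Nat.reduceLT, decide_true, Bool.true_and, Nat.add_zero]

theorem param_testBit (c : ℕ) (k j : Fin 5) : (param c k).testBit j =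
    (![![true, c.testBit 0, c.testBit 1, c.testBit 2, c.testBit 3],
       ![false, true, false, false, false],
       ![false, c.testBit 4, c.testBit 7, c.testBit 8, c.testBit 9],
       ![false, c.testBit 5, c.testBit 10, c.testBit 11, c.testBit 12],
       ![false, c.testBit 6, c.testBit 13, c.testBit 14, c.testBit 15]] k j) := by
  have low : ∀ r < 16, ∀ i : Fin 5, (2 * r + 1).testBit i =
      ![true, r.testBit 0, r.testBit 1, r.testBit 2, r.testBit 3] i := by decide +kernel
  have high : ∀ r < 8, ∀ b < 2, ∀ i : Fin 5, (4 * r + 2 * b).testBit i =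
      ![false, b.testBit 0, r.testBit 0, r.testBit 1, r.testBit 2] i := by decide +kernel
  have h16 : ∀ i < 4, (c % 16).testBit i = c.testBit i := fun i hi => by
    rw [show (16 : ℕ) = 2 ^ 4 from rfl, Nat.testBit_mod_two_pow]; simp [hi]
  have h8 : ∀ a, ∀ i < 3, ((c >>> a) % 8).testBit i = c.testBit (a + i) := fun a i hi => by
    rw [show (8 : ℕ) = 2 ^ 3 from rfl, Nat.testBit_mod_two_pow, Nat.testBit_shiftRight]; simp [hi]
  have h2 : ∀ a, ((c >>> a) % 2).testBit 0 = c.testBit a := fun a => by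
    rw [show (2 : ℕ) = 2 ^ 1 from rfl, Nat.testBit_mod_two_pow, Nat.testBit_shiftRight]; simp
  fin_cases k
  · show (2 * (c % 16) + 1).testBit j = _
    rw [low _ (Nat.mod_lt _ (by norm_num)) j, h16 0 (by norm_num), h16 1 (by norm_num),
      h16 2 (by norm_num), h16 3 (by norm_num)]
    rfl
  · show (2 : ℕ).testBit j = _
    fin_cases j <;> rfl
  all_goals
    show (4 * ((c >>> _) % 8) + 2 * ((c >>> _) % 2)).testBit j = _
    rw [high _ (Nat.mod_lt _ (by norm_num)) _ (Nat.mod_lt _ (by norm_num)) j, h8 _ 0 (by norm_num),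
      h8 _ 1 (by norm_num), h8 _ 2 (by norm_num), h2]
    rfl

/-- The positions of the parameters. -/
def bitAt (X : Matrix (Fin 5) (Fin 5) (ZMod 2)) (k : Fin 16) : Bool :=
  decide (X (![0, 0, 0, 0, 2, 3, 4, 2, 2, 2, 3, 3, 3, 4, 4, 4] k)
    (![1, 2, 3, 4, 1, 1, 1, 2, 3, 4, 2, 3, 4, 2, 3, 4] k) = 1)

/-- The parameters of the left factor. -/
def leftBits (X : Matrix (Fin 5) (Fin 5) (ZMod 2)) (k : Fin 12) : Bool := bitAt X ⟨4 + k, by omega⟩

/-- The parameters of the right factor. -/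
def rightBits (X : Matrix (Fin 5) (Fin 5) (ZMod 2)) (k : Fin 4) : Bool := bitAt X ⟨k, by omega⟩

theorem comm_entries {X : Matrix (Fin 5) (Fin 5) (ZMod 2)}
    (hc : Matrix.transvection 0 1 1 * X = X * Matrix.transvection 0 1 1) (hd : X.det = 1) :
    X 0 0 = 1 ∧ X 1 1 = 1 ∧ X 1 0 = 0 ∧ X 2 0 = 0 ∧ X 3 0 = 0 ∧ X 4 0 = 0 ∧ X 1 2 = 0 ∧ X 1 3 = 0 ∧ X 1 4 = 0 := by
  have hE : Matrix.single (0 : Fin 5) 1 (1 : ZMod 2) * X = X * Matrix.single (0 : Fin 5) 1 1 := by
    simpa [Matrix.transvection, add_mul, mul_add] using hc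
  have e := fun i j : Fin 5 => congrFun (congrFun hE i) j
  have e00 := e 0 0; have e02 := e 0 2; have e03 := e 0 3; have e04 := e 0 4
  have e01 := e 0 1; have e11 := e 1 1; have e21 := e 2 1; have e31 := e 3 1
  have e41 := e 4 1
  simp [Matrix.mul_apply, Fin.sum_univ_five, Matrix.single_apply] at e00 e01 e02 e03 e04 e11 e21 e31 e41
  have h00 : X 0 0 = 1 := by
    rcases (show ∀ a : ZMod 2, a = 0 ∨ a = 1 by decide) (X 0 0) with h | h
    · exfalso
      have : X.det = 0 := Matrix.det_eq_zero_of_column_eq_zero 0 fun i => by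
        fin_cases i
        exacts [h, e00, e21.symm ▸ rfl, e31.symm ▸ rfl, e41.symm ▸ rfl]
      exact one_ne_zero (hd.symm.trans this)
    · exact h
  exact ⟨h00, by rw [e01, h00], by simp_all, by simp_all, by simp_all, by simp_all, e02, e03, e04⟩

theorem centralizer_param {X : Matrix (Fin 5) (Fin 5) (ZMod 2)}
    (hc : Matrix.transvection 0 1 1 * X = X * Matrix.transvection 0 1 1) (hd : X.det = 1) :
    ∃ j < 4096, ∃ x < 16, X = rowsMat (param (16 * j)) * rowsMat (param (34944 + x)) ∧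
      (∀ v, 1 ≤ v → v < 8 → (orth (16 * j) 0 v && orth (16 * j) 1 v && orth (16 * j) 2 v) = false) ∧
      (∀ v, 1 ≤ v → v < 8 → (orth (34944 + x) 0 v && orth (34944 + x) 1 v && orth (34944 + x) 2 v) = false) := by
  obtain ⟨h00, h11, h10, h20, h30, h40, h12, h13, h14⟩ := comm_entries hc hd
  obtain ⟨x, hx, hxb⟩ : ∃ x < 16, ∀ i : Fin 4, x.testBit i = rightBits X i :=
    ⟨Nat.ofBits (rightBits X), Nat.ofBits_lt_two_pow _, fun i => Nat.testBit_ofBits_lt _ _ i.2⟩
  obtain ⟨j, hj, hjb⟩ : ∃ j < 4096, ∀ i : Fin 12, j.testBit i = leftBits X i :=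
    ⟨Nat.ofBits (leftBits X), Nat.ofBits_lt_two_pow _, fun i => Nat.testBit_ofBits_lt _ _ i.2⟩
  have hr : ∀ r < 16, ∀ i < 16, (34944 + r).testBit i = (r.testBit i || i == 7 || i == 11 || i == 15) := by
    decide +kernel
  have hl : ∀ i, (16 * j).testBit i = (decide (4 ≤ i) && j.testBit (i - 4)) := fun i => by
    rw [show (16 : ℕ) = 2 ^ 4 from rfl, Nat.testBit_two_pow_mul]
  have hlx : ∀ i, 4 ≤ i → x.testBit i = false := fun i hi => Nat.testBit_lt_two_pow
    (lt_of_lt_of_le hx (Nat.pow_le_pow_right (by norm_num : 1 ≤ 2) hi))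
  have x0 : x.testBit 0 = decide (X 0 1 = 1) := hxb 0
  have x1 : x.testBit 1 = decide (X 0 2 = 1) := hxb 1
  have x2 : x.testBit 2 = decide (X 0 3 = 1) := hxb 2
  have x3 : x.testBit 3 = decide (X 0 4 = 1) := hxb 3
  have j0 : j.testBit 0 = decide (X 2 1 = 1) := hjb 0
  have j1 : j.testBit 1 = decide (X 3 1 = 1) := hjb 1
  have j2 : j.testBit 2 = decide (X 4 1 = 1) := hjb 2
  have j3 : j.testBit 3 = decide (X 2 2 = 1) := hjb 3
  have j4 : j.testBit 4 = decide (X 2 3 = 1) := hjb 4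
  have j5 : j.testBit 5 = decide (X 2 4 = 1) := hjb 5
  have j6 : j.testBit 6 = decide (X 3 2 = 1) := hjb 6
  have j7 : j.testBit 7 = decide (X 3 3 = 1) := hjb 7
  have j8 : j.testBit 8 = decide (X 3 4 = 1) := hjb 8
  have j9 : j.testBit 9 = decide (X 4 2 = 1) := hjb 9
  have j10 : j.testBit 10 = decide (X 4 3 = 1) := hjb 10
  have j11 : j.testBit 11 = decide (X 4 4 = 1) := hjb 11
  refine ⟨j, hj, x, hx, ?_, ?_, ?_⟩
  · ext a b
    rw [Matrix.mul_apply, Fin.sum_univ_five]
    simp only [rowsMat, Matrix.of_apply, param_testBit]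
    fin_cases a <;> fin_cases b <;>
      simp [hr x hx, hl, hlx, x0, x1, x2, x3, j0, j1, j2, j3, j4, j5, j6, j7, j8, j9, j10, j11,
        h00, h11, h10, h20, h30, h40, h12, h13, h14, zmod_two]
  · intro v h1 h8
    by_contra hne
    rw [Bool.not_eq_false] at hne
    simp only [orth_eq _ _ _ h8, hl, Nat.reduceMul, Nat.reduceAdd, Nat.reduceSub, Nat.reduceLeDiff,
      decide_true, Bool.true_and, j3, j4, j5, j6, j7, j8, j9, j10, j11, Bool.and_eq_true] at hne
    obtain ⟨⟨hA, hB⟩, hC⟩ := hne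
    have key : ∀ (r : Fin 3 → ZMod 2) (w : Fin 3 → Bool),
        (!((decide (r 0 = 1) && w 0) ^^ (decide (r 1 = 1) && w 1) ^^ (decide (r 2 = 1) && w 2))) = true →
        r 0 * (if w 0 then 1 else 0) + r 1 * (if w 1 then 1 else 0) + r 2 * (if w 2 then 1 else 0) = 0 := by
      decide
    let w : Fin 3 → Bool := fun i => v.testBit i
    let b : Fin 3 → ZMod 2 := fun i => if w i then 1 else 0
    let u : Fin 5 → ZMod 2 := ![X 0 2 * b 0 + X 0 3 * b 1 + X 0 4 * b 2, 0, b 0, b 1, b 2]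
    have hu : X.mulVec u = 0 := by
      funext a
      have k2 := key ![X 2 2, X 2 3, X 2 4] w hA
      have k3 := key ![X 3 2, X 3 3, X 3 4] w hB
      have k4 := key ![X 4 2, X 4 3, X 4 4] w hC
      have self : ∀ a : ZMod 2, a + a = 0 := by decide
      fin_cases a <;> simp [Matrix.mulVec, dotProduct, Fin.sum_univ_five, u, b, h00, h11, h10, h20, h30, h40,
        h12, h13, h14] at k2 k3 k4 ⊢
      · generalize X 0 2 = p; generalize X 0 3 = q; generalize X 0 4 = r
        generalize w 0 = a; generalize w 1 = a'; generalize w 2 = a''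
        revert p q r a a' a''
        decide
      all_goals assumption
    have h0 := Matrix.eq_zero_of_mulVec_eq_zero (by rw [hd]; exact one_ne_zero) hu
    have hv : ∀ v < 8, v.testBit 0 = false → v.testBit 1 = false → v.testBit 2 = false → v = 0 := by decide
    have hb : ∀ i : Fin 3, b i = 0 → v.testBit i = false := fun i hi => by
      cases h : v.testBit (i : ℕ)
      · rfl
      · exact absurd (by simpa [b, w, h] using hi) (one_ne_zero (α := ZMod 2))
    have := hv v h8 (hb 0 (congrFun h0 2)) (hb 1 (congrFun h0 3)) (hb 2 (congrFun h0 4))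
    omega
  · clear hxb x0 x1 x2 x3 hlx
    revert x
    intro x hx v h1 h8
    have h : ∀ r < 16, ∀ v < 8, v ≠ 0 →
        (orth (34944 + r) 0 v && orth (34944 + r) 1 v && orth (34944 + r) 2 v) = false := by decide +kernel
    exact h x hx v h8 (by omega)

end CfsgLib.HeTwoB
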