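import Cfsg.Agent.HeTwoBCentralizer.Base

/-! Checks of the enumeration of two factors of the linear centraliser. -/

set_option autoImplicit false

namespace CfsgLib.HeTwoB

open H29.CosetCert (allIn)

theorem params_low : allIn (fun x => paramOK (34944 + x)) 0 16 = true := by decide +kernel

theorem params0 : allIn (fun j => paramOK (16 * j)) 0 1024 = true := by decide +kernel
theorem params1 : allIn (fun j => paramOK (16 * j)) 1024 1024 = true := by decide +kernel
theorem params2 : allIn (fun j => paramOK (16 * j)) 2048 1024 = true := by decide +kernel
theorem params3 : allIn (fun j => paramOK (16 * j)) 3072 1024 = true := by decide +kernel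

end CfsgLib.HeTwoB
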