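import Cfsg.Agent.HeTwoBCentralizer.Base

/-! Checks of the element table, part 9. -/

set_option autoImplicit false

namespace CfsgLib.HeTwoB

open H29.CosetCert (allIn)

theorem elems9 : allIn elemOK 12096 1344 = true := by decide +kernel

end CfsgLib.HeTwoB
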