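import Cfsg.Agent.HeTwoBCentralizer.Perms
import Cfsg.Agent.HeTwoBCentralizer.Colours
import Cfsg.Agent.HeTwoBCentralizer.Params
import Cfsg.Agent.HeTwoBCentralizer.Linear
import Cfsg.Agent.HeTwoBCentralizer.Steps0
import Cfsg.Agent.HeTwoBCentralizer.Steps1
import Cfsg.Agent.HeTwoBCentralizer.Steps2
import Cfsg.Agent.HeTwoBCentralizer.Steps3
import Cfsg.Agent.HeTwoBCentralizer.Steps4
import Cfsg.Agent.HeTwoBCentralizer.Steps5
import Cfsg.Agent.HeTwoBCentralizer.Steps6
import Cfsg.Agent.HeTwoBCentralizer.Steps7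
import Cfsg.Agent.HeTwoBCentralizer.Steps8
import Cfsg.Agent.HeTwoBCentralizer.Steps9
import Cfsg.Agent.HeTwoBCentralizer.Steps10
import Cfsg.Agent.HeTwoBCentralizer.Steps11
import Cfsg.Agent.HeTwoBCentralizer.Steps12
import Cfsg.Agent.HeTwoBCentralizer.Steps13
import Cfsg.Agent.HeTwoBCentralizer.Steps14
import Cfsg.Agent.HeTwoBCentralizer.Steps15
import Cfsg.Agent.H29.CosetCert.He.Cert

/-! The centraliser of a 2B involution of He is a transvection centraliser of SL(5, 2). -/

set_option autoImplicit false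

namespace CfsgLib.HeTwoB

open H29.CosetCert (allIn allIn_iff runR permOf)
open H29.CosetCert.HeData (orb1 orb2 orb3 orb4)
open H29.CosetCert.HeCert (cert g)

abbrev M5 := Matrix.SpecialLinearGroup (Fin 5) (ZMod 2)

/-- The involution. -/
noncomputable abbrev z : Cfsg.Spor.He := g 3

/-- The action on points, as naturals. -/
noncomputable def P (x : Cfsg.Spor.He) (c : ℕ) : ℕ :=
  if h : c < 2058 then ((cert.ρ x ⟨c, h⟩ : Fin cert.n) : ℕ) else c

theorem P_of (x : Cfsg.Spor.He) (c : Fin cert.n) : P x c = cert.ρ x c := by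
  unfold P
  rw [dif_pos (show (c : ℕ) < 2058 from c.2)]

theorem P_lt (x : Cfsg.Spor.He) {c : ℕ} (h : c < 2058) : P x c < 2058 := by
  rw [P_of x ⟨c, h⟩]; exact (cert.ρ x ⟨c, h⟩).2

theorem P_one (c : ℕ) : P 1 c = c := by
  unfold P; split <;> simp

theorem P_mul (x y : Cfsg.Spor.He) {c : ℕ} (h : c < 2058) : P (x * y) c = P x (P y c) := by
  rw [P_of _ ⟨c, h⟩, P_of y ⟨c, h⟩, P_of, map_mul, Equiv.Perm.mul_apply]

theorem P_inv (x : Cfsg.Spor.He) {c : ℕ} (h : c < 2058) : P x⁻¹ (P x c) = c := by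
  rw [← P_mul _ _ h, inv_mul_cancel, P_one]

theorem P_inv' (x : Cfsg.Spor.He) {c : ℕ} (h : c < 2058) : P x (P x⁻¹ c) = c := by
  rw [← P_mul _ _ h, mul_inv_cancel, P_one]

theorem P_inj (x : Cfsg.Spor.He) {c d : ℕ} (hc : c < 2058) (hd : d < 2058) (h : P x c = P x d) : c = d := by
  rw [← P_inv x hc, h, P_inv x hd]

theorem perm_eq {x y : ℕ} (hx : x < 7) (hy : y < 2058) : perm x y = H29.CosetCert.HeData.T x y := by
  have h := (allIn_iff _ _ _).1 perms_ok x (Nat.zero_le _) (by omega)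
  exact beq_iff_eq.1 ((allIn_iff _ _ _).1 h y (Nat.zero_le _) (by omega))

theorem P_word : ∀ w : List ℕ, (∀ x ∈ w, x < 7) → ∀ c < 2058, P (w.map g).prod c = runR perm w c := by
  intro w
  induction w with
  | nil => intro _ c _; simpa [runR] using P_one c
  | cons x w ih =>
    intro hw c hc
    have hx : x < 7 := hw x List.mem_cons_self
    rw [List.map_cons, List.prod_cons, P_mul _ _ hc, H29.CosetCert.runR_cons]
    have ih' := ih (fun y hy => hw y (List.mem_cons_of_mem _ hy)) c hc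
    have hl := P_lt (w.map g).prod hc
    rw [← ih', perm_eq hx hl, P_of (g x) ⟨_, hl⟩]
    have h1 := cert.prod_ρ_val [x] ⟨P (w.map g).prod c, hl⟩
    simp only [List.map_cons, List.map_nil, List.prod_singleton] at h1
    exact h1.trans (H29.CosetCert.runR_cons _ _ _ _)

theorem P_g {x c : ℕ} (hx : x < 7) (hc : c < 2058) : P (g x) c = perm x c := by
  have h := P_word [x] (by simpa using hx) c hc
  simp only [List.map_cons, List.map_nil, List.prod_singleton, H29.CosetCert.runR_cons] at h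
  simpa [runR] using h

/-- The generators of the centraliser. -/
noncomputable def u (s : Bool) : Cfsg.Spor.He := ((bif s then wb else wa).map g).prod

theorem gens_at {y : ℕ} (hy : y < 2058) :
    (∀ s, P (u s) y = pk (genPerm s) y) ∧ P z y = pk Data.gz y ∧
      ∀ s, pk Data.gz (pk (genPerm s) y) = pk (genPerm s) (pk Data.gz y) := by
  have h := (allIn_iff _ _ _).1 gens_ok y (Nat.zero_le _) (by omega)
  simp only [Bool.and_eq_true, beq_iff_eq] at h
  obtain ⟨⟨⟨⟨ha, hb⟩, hz⟩, hca⟩, hcb⟩ := h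
  refine ⟨fun s => ?_, ?_, fun s => ?_⟩
  · cases s
    · exact (P_word wa (by decide) y hy).trans ha.symm
    · exact (P_word wb (by decide) y hy).trans hb.symm
  · exact (P_g (by norm_num) hy).trans hz.symm
  · cases s
    exacts [hca, hcb]

/-- The colour of a point relative to the base point. -/
def cls (y : ℕ) : ℕ :=
  bif y == 0 then 0 else bif orb1.testBit y then 1 else bif orb2.testBit y then 2 else
    bif orb3.testBit y then 3 else bif orb4.testBit y then 4 else 5

theorem mem_H {h : Cfsg.Spor.He} (h0 : P h 0 = 0) : h ∈ H29.CosetCert.HeCert.H := by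
  have hb : cert.ρ h cert.base = cert.base := by
    apply Fin.ext
    rw [← P_of]
    exact h0
  have he : cert.toPt (h : Cfsg.Spor.He ⧸ H29.CosetCert.HeCert.H) = cert.toPt ((1 : Cfsg.Spor.He) : Cfsg.Spor.He ⧸ H29.CosetCert.HeCert.H) := by
    rw [cert.toPt_mk, cert.toPt_mk, map_one, hb]; rfl
  have := QuotientGroup.eq.1 (Function.LeftInverse.injective cert.ofPt_toPt he)
  rwa [mul_one, inv_mem_iff] at this

theorem bit_inv {m s sz : ℕ} (hex : ∃ q : Cfsg.Spor.He ⧸ H29.CosetCert.HeCert.H,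
      (MulAction.orbit H29.CosetCert.HeCert.H q).ncard = sz ∧
      ∀ p, p ∈ MulAction.orbit H29.CosetCert.HeCert.H q ↔ m.testBit (cert.toPt p : Fin cert.n) = true)
    (_hs : s = sz) {h : Cfsg.Spor.He} (hh : h ∈ H29.CosetCert.HeCert.H) {c : ℕ} (hc : c < 2058) :
    m.testBit (P h c) = m.testBit c := by
  obtain ⟨q, _, hq⟩ := hex
  obtain ⟨p, hp⟩ := cert.toPt_surjective ⟨c, hc⟩
  have h1 : P h c = (cert.toPt ((⟨h, hh⟩ : H29.CosetCert.HeCert.H) • p) : Fin cert.n) := by
    rw [P_of h ⟨c, hc⟩, ← hp, ← cert.toPt_smul]; rfl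
  have h2 : c = (cert.toPt p : Fin cert.n) := by rw [hp]
  rw [Bool.eq_iff_iff, h1]
  conv_rhs => rw [h2]
  rw [← hq, ← hq, ← MulAction.orbit_eq_iff, ← MulAction.orbit_eq_iff,
    MulAction.orbit_eq_iff.2 (MulAction.mem_orbit p _)]

theorem cls_inv {h : Cfsg.Spor.He} (h0 : P h 0 = 0) {c : ℕ} (hc : c < 2058) : cls (P h c) = cls c := by
  have hh := mem_H h0
  have e1 : orb1.testBit (P h c) = orb1.testBit c := bit_inv (s := 1360)
    (cert.exists_orbit (s := 1) (by decide) H29.CosetCert.HeData.orb1_grow H29.CosetCert.HeData.orb1_inv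
      H29.CosetCert.HeData.orb1_count) rfl hh hc
  have e2 : orb2.testBit (P h c) = orb2.testBit c := bit_inv (s := 425)
    (cert.exists_orbit (s := 2) (by decide) H29.CosetCert.HeData.orb2_grow H29.CosetCert.HeData.orb2_inv
      H29.CosetCert.HeData.orb2_count) rfl hh hc
  have e3 : orb3.testBit (P h c) = orb3.testBit c := bit_inv (s := 136)
    (cert.exists_orbit (s := 46) (by decide) H29.CosetCert.HeData.orb3_grow H29.CosetCert.HeData.orb3_inv
      H29.CosetCert.HeData.orb3_count) rfl hh hc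
  have e4 : orb4.testBit (P h c) = orb4.testBit c := bit_inv (s := 136)
    (cert.exists_orbit (s := 65) (by decide) H29.CosetCert.HeData.orb4_grow H29.CosetCert.HeData.orb4_inv
      H29.CosetCert.HeData.orb4_count) rfl hh hc
  have e0 : (P h c == 0) = (c == 0) := by
    rw [Bool.eq_iff_iff, beq_iff_eq, beq_iff_eq]
    exact ⟨fun e => P_inj h hc (by norm_num) (e.trans h0.symm), fun e => e ▸ h0⟩
  simp only [cls, e0, e1, e2, e3, e4]

theorem letters_lt : ∀ k < 103, Data.letN.getD k 0 < 7 := by decide +kernel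

theorem node_spec : ∀ k, k < 103 → ∃ U : Cfsg.Spor.He, P U 0 = Data.pts.getD k 0 ∧
    ∀ y < 2058, colour k y = cls (P U⁻¹ y) := by
  intro k
  induction k using Nat.strong_induction_on with
  | _ k ih =>
    intro hk
    by_cases h0 : k = 0
    · subst h0
      refine ⟨1, P_one 0, fun y hy => ?_⟩
      rw [inv_one, P_one]
      exact beq_iff_eq.1 ((allIn_iff _ _ _).1 root_ok y (Nat.zero_le _) (by omega))
    · have h := (allIn_iff _ _ _).1 nodes_ok k (by omega) (by omega)
      simp only [nodeOK, Bool.and_eq_true, beq_iff_eq, Nat.blt_eq] at h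
      obtain ⟨⟨hp, hpt⟩, hcol⟩ := h
      obtain ⟨U, hU, hc⟩ := ih _ hp (by omega)
      have hx := letters_lt k hk
      refine ⟨g (Data.letN.getD k 0) * U, ?_, fun y hy => ?_⟩
      · rw [P_mul _ _ (by norm_num), hU, P_g hx (hU ▸ P_lt U (by norm_num))]
        exact hpt
      · have hsq : (g (Data.letN.getD k 0))⁻¹ = g (Data.letN.getD k 0) :=
          inv_eq_of_mul_eq_one_right (cert.g_sq _)
        rw [mul_inv_rev, hsq, P_mul _ _ hy, ← hc _ (P_lt _ hy), P_g hx hy]
        exact beq_iff_eq.1 ((allIn_iff _ _ _).1 hcol y (Nat.zero_le _) (by omega))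

theorem anch_spec : ∀ i < 18, Data.anchNode.getD i 0 < 103 ∧
    Data.pts.getD (Data.anchNode.getD i 0) 0 = Data.anch.getD i 0 ∧ Data.anch.getD i 0 < 2058 := by
  decide +kernel

/-- `x` fixes the first `m` anchors. -/
def Fix (x : Cfsg.Spor.He) (m : ℕ) : Prop := ∀ i < m, P x (Data.anch.getD i 0) = Data.anch.getD i 0

theorem foldl_congr {a b : ℕ} : ∀ (l : List ℕ) (s : ℕ), (∀ k ∈ l, colour k a = colour k b) →
    l.foldl (fun s k => 8 * s + colour k a) s = l.foldl (fun s k => 8 * s + colour k b) s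
  | [], _, _ => rfl
  | k :: l, s, h => by
    rw [List.foldl_cons, List.foldl_cons, h k List.mem_cons_self,
      foldl_congr l _ fun j hj => h j (List.mem_cons_of_mem _ hj)]

theorem sig_inv {x : Cfsg.Spor.He} (hz : z * x = x * z) {m : ℕ} (hm : m ≤ 18) (hf : Fix x m) {y : ℕ}
    (hy : y < 2058) : sig m (P x y) = sig m y := by
  have hcol : ∀ k ∈ Data.anchNode.take m, colour k (P x y) = colour k y := by
    intro k hk
    obtain ⟨i, hi, rfl⟩ := List.mem_iff_getElem.1 hk
    rw [List.length_take] at hi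
    have hi' : i < m := by omega
    have hget : (Data.anchNode.take m)[i] = Data.anchNode.getD i 0 := by
      rw [List.getElem_take, List.getD_eq_getElem _ _ (by omega)]
    rw [hget]
    obtain ⟨hn, hpt, _⟩ := anch_spec i (by omega)
    obtain ⟨U, hU, hc⟩ := node_spec _ hn
    rw [hc _ (P_lt _ hy), hc _ hy]
    rw [hpt] at hU
    have hU' : U⁻¹ * x * U = U⁻¹ * x * U := rfl
    have h0 : P (U⁻¹ * x * U) 0 = 0 := by
      rw [P_mul _ _ (by norm_num), P_mul _ _ (P_lt _ (by norm_num)), hU, hf i hi', ← hU, P_inv _ (by norm_num)]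
    rw [← cls_inv h0 (P_lt U⁻¹ hy), ← P_mul _ _ hy, ← P_mul _ _ hy]
    simp [mul_assoc]
  have hbit : (pk Data.gz (P x y) == P x y) = (pk Data.gz y == y) := by
    rw [← (gens_at (P_lt x hy)).2.1, ← (gens_at hy).2.1, ← P_mul _ _ hy, hz, P_mul _ _ hy,
      Bool.eq_iff_iff, beq_iff_eq, beq_iff_eq]
    exact ⟨fun e => P_inj x (P_lt z hy) hy e, fun e => by rw [e]⟩
  simp only [sig, foldl_congr _ 0 hcol, hbit]

theorem fix_z {x : Cfsg.Spor.He} (hz : z * x = x * z) {a : ℕ} (ha : a < 2058) (h : P x a = a) :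
    P x (pk Data.gz a) = pk Data.gz a := by
  rw [← (gens_at ha).2.1, ← P_mul _ _ ha, ← hz, P_mul _ _ ha, h]

theorem bpt_lt : ∀ k < 5, bpt k < 2058 := by decide +kernel

theorem fix_of_base {x : Cfsg.Spor.He} (hz : z * x = x * z) {lv m : ℕ}
    (hcov : ∀ i < m, ∃ k < lv, Data.anch.getD i 0 = bpt k ∨ Data.anch.getD i 0 = pk Data.gz (bpt k))
    (hlv : lv ≤ 5) (h : ∀ k < lv, P x (bpt k) = bpt k) : Fix x m := by
  intro i hi
  obtain ⟨k, hk, e | e⟩ := hcov i hi <;> rw [e]
  · exact h k hk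
  · exact fix_z hz (bpt_lt k (by omega)) (h k hk)

theorem extend {x : Cfsg.Spor.He} (hz : z * x = x * z) {m : ℕ} (hm : m + 1 < 18) (hu : uniqueOK m = true)
    (hp : pk Data.gz (Data.anch.getD m 0) = Data.anch.getD (m + 1) 0) (hf : Fix x m) : Fix x (m + 2) := by
  have ha := (anch_spec m (by omega)).2.2
  have h := (allIn_iff _ _ _).1 hu _ (Nat.zero_le _) (Nat.lt_of_lt_of_eq (P_lt x ha) (Nat.zero_add _).symm)
  rw [sig_inv hz (by omega) hf ha] at h
  have h' : P x (Data.anch.getD m 0) = Data.anch.getD m 0 := by simpa using h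
  intro i hi
  rcases Nat.lt_succ_iff_lt_or_eq.1 hi with h1 | rfl
  · rcases Nat.lt_succ_iff_lt_or_eq.1 h1 with h2 | rfl
    · exact hf i h2
    · exact h'
  · rw [← hp]; exact fix_z hz ha h'

theorem rigid (hinj : Function.Injective cert.ρ) {x : Cfsg.Spor.He} (hz : z * x = x * z)
    (h : ∀ k < 5, P x (bpt k) = bpt k) : x = 1 := by
  have h8 : Fix x 8 := fix_of_base hz (lv := 5) (by decide +kernel) le_rfl h
  have hu := unique_ok
  simp only [Bool.and_eq_true] at hu
  obtain ⟨⟨⟨⟨u8, u10⟩, u12⟩, u14⟩, u16⟩ := hu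
  have h18 : Fix x 18 := extend hz (by norm_num) u16 (by decide +kernel)
    (extend hz (by norm_num) u14 (by decide +kernel)
      (extend hz (by norm_num) u12 (by decide +kernel)
        (extend hz (by norm_num) u10 (by decide +kernel)
          (extend hz (by norm_num) u8 (by decide +kernel) h8))))
  have hs := separated
  simp only [separatedOK, Bool.and_eq_true, allIn_iff, Nat.blt_eq, beq_iff_eq] at hs
  obtain ⟨hord, hpos⟩ := hs
  have hmono : ∀ i j, i < j → j < 2058 → sig 18 (pk Data.order i) < sig 18 (pk Data.order j) := by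
    intro i j hij
    induction j with
    | zero => omega
    | succ j ih =>
      intro hj
      have hstep := hord j (Nat.zero_le _) (by omega)
      rcases Nat.lt_succ_iff_lt_or_eq.1 hij with h1 | rfl
      · exact (ih h1 (by omega)).trans hstep
      · exact hstep
  apply hinj
  rw [map_one]
  apply Equiv.ext
  intro c
  apply Fin.ext
  rw [← P_of, Equiv.Perm.one_apply]
  have hc : (c : ℕ) < 2058 := c.2
  have e := sig_inv hz le_rfl h18 hc
  obtain ⟨p1, e1⟩ := hpos (P x c) (Nat.zero_le _) (by have := P_lt x hc; omega)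
  obtain ⟨p2, e2⟩ := hpos c (Nat.zero_le _) (by omega)
  have e' : sig 18 (pk Data.order (pk Data.pos (P x c))) = sig 18 (pk Data.order (pk Data.pos c)) := by
    rw [e1, e2, e]
  rcases lt_trichotomy (pk Data.pos (P x c)) (pk Data.pos c) with hh | hh | hh
  · exact absurd e' (hmono _ _ hh p2).ne
  · rw [hh] at e1; exact e1.symm.trans e2
  · exact absurd e' (hmono _ _ hh p1).ne'

theorem gen_det : ∀ s, (rowsMat (genRow s)).det = 1 := by
  intro s; cases s <;> decide +kernel

/-- The generators in SL(5, 2). -/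
def A (s : Bool) : M5 := ⟨rowsMat (genRow s), gen_det s⟩

theorem A_comm (t : M5) (ht : (t : Matrix (Fin 5) (Fin 5) (ZMod 2)) = Matrix.transvection 0 1 1) (s : Bool) :
    t * A s = A s * t := by
  apply Subtype.ext
  show (t : Matrix (Fin 5) (Fin 5) (ZMod 2)) * rowsMat (genRow s) = rowsMat (genRow s) * t
  rw [ht]
  ext i j
  revert s i j
  decide +kernel

/-- The graph of the isomorphism. -/
noncomputable def Gam : Subgroup (Cfsg.Spor.He × M5) := Subgroup.closure (Set.range fun s => (u s, A s))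

/-- Element `i` of the table. -/
def Spec (p : Cfsg.Spor.He × M5) (i : ℕ) : Prop :=
  (∀ k < 5, P p.1 (bpt k) = tup i k) ∧ (p.2 : Matrix (Fin 5) (Fin 5) (ZMod 2)) = rowsMat (row i)

theorem elems_ok {i : ℕ} (hi : i < 21504) : elemOK i = true := by
  rcases Nat.lt_or_ge i 1344 with h0 | h0
  · exact (allIn_iff _ _ _).1 elems0 i (by omega) (by omega)
  rcases Nat.lt_or_ge i 2688 with h1 | h1
  · exact (allIn_iff _ _ _).1 elems1 i (by omega) (by omega)
  rcases Nat.lt_or_ge i 4032 with h2 | h2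
  · exact (allIn_iff _ _ _).1 elems2 i (by omega) (by omega)
  rcases Nat.lt_or_ge i 5376 with h3 | h3
  · exact (allIn_iff _ _ _).1 elems3 i (by omega) (by omega)
  rcases Nat.lt_or_ge i 6720 with h4 | h4
  · exact (allIn_iff _ _ _).1 elems4 i (by omega) (by omega)
  rcases Nat.lt_or_ge i 8064 with h5 | h5
  · exact (allIn_iff _ _ _).1 elems5 i (by omega) (by omega)
  rcases Nat.lt_or_ge i 9408 with h6 | h6
  · exact (allIn_iff _ _ _).1 elems6 i (by omega) (by omega)
  rcases Nat.lt_or_ge i 10752 with h7 | h7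
  · exact (allIn_iff _ _ _).1 elems7 i (by omega) (by omega)
  rcases Nat.lt_or_ge i 12096 with h8 | h8
  · exact (allIn_iff _ _ _).1 elems8 i (by omega) (by omega)
  rcases Nat.lt_or_ge i 13440 with h9 | h9
  · exact (allIn_iff _ _ _).1 elems9 i (by omega) (by omega)
  rcases Nat.lt_or_ge i 14784 with h10 | h10
  · exact (allIn_iff _ _ _).1 elems10 i (by omega) (by omega)
  rcases Nat.lt_or_ge i 16128 with h11 | h11
  · exact (allIn_iff _ _ _).1 elems11 i (by omega) (by omega)
  rcases Nat.lt_or_ge i 17472 with h12 | h12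
  · exact (allIn_iff _ _ _).1 elems12 i (by omega) (by omega)
  rcases Nat.lt_or_ge i 18816 with h13 | h13
  · exact (allIn_iff _ _ _).1 elems13 i (by omega) (by omega)
  rcases Nat.lt_or_ge i 20160 with h14 | h14
  · exact (allIn_iff _ _ _).1 elems14 i (by omega) (by omega)
  exact (allIn_iff _ _ _).1 elems15 i (by omega) (by omega)

theorem zero_spec : (∀ k < 5, tup 0 k = bpt k) ∧ ∀ k < 5, row 0 k = 2 ^ k := by decide +kernel

theorem rowsMat_one : rowsMat (fun k => 2 ^ k) = 1 := by decide +kernel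

theorem spec_one : Spec 1 0 := by
  refine ⟨fun k hk => ?_, ?_⟩
  · rw [Prod.fst_one, P_one, zero_spec.1 k hk]
  · rw [rowsMat_congr zero_spec.2, rowsMat_one]; rfl

theorem spec_step {p : Cfsg.Spor.He × M5} {i : ℕ} (hi : i < 21504) (h : Spec p i) (s : Bool) :
    step i s < 21504 ∧ Spec ((u s, A s) * p) (step i s) := by
  have he := elems_ok hi
  simp only [elemOK, Bool.and_eq_true] at he
  have hs : stepOK i s = true := by cases s; exacts [he.1.1, he.1.2]
  simp only [stepOK, Bool.and_eq_true, allIn_iff, beq_iff_eq, Nat.blt_eq] at hs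
  obtain ⟨⟨hl, ht⟩, hr⟩ := hs
  refine ⟨hl, fun k hk => ?_, ?_⟩
  · have hb := bpt_lt k hk
    show P (u s * p.1) (bpt k) = _
    rw [P_mul _ _ hb, (gens_at (P_lt p.1 hb)).1 s, h.1 k hk, ht k (Nat.zero_le _) (by omega)]
  · show rowsMat (genRow s) * (p.2 : Matrix (Fin 5) (Fin 5) (ZMod 2)) = _
    rw [h.2, ← rowsMat_comb]
    exact (rowsMat_congr fun k hk => hr k (Nat.zero_le _) (by omega)).symm

theorem spec_exists : ∀ i < 21504, ∃ p ∈ Gam, Spec p i := by
  intro i
  induction i using Nat.strong_induction_on with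
  | _ i ih =>
    intro hi
    by_cases h0 : i = 0
    · exact ⟨1, one_mem _, h0 ▸ spec_one⟩
    · have he := elems_ok hi
      simp only [elemOK, Bool.and_eq_true, Bool.or_eq_true, beq_iff_eq, Nat.blt_eq, h0, false_or] at he
      obtain ⟨_, ⟨⟨hlt, hst⟩, _⟩, _⟩ := he
      obtain ⟨p, hp, hsp⟩ := ih _ hlt (by omega)
      refine ⟨(u (par i % 2 == 1), A (par i % 2 == 1)) * p,
        mul_mem (Subgroup.subset_closure ⟨_, rfl⟩) hp, ?_⟩
      have h := (spec_step (by omega) hsp (par i % 2 == 1)).2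
      rwa [hst] at h

theorem spec_mem [Finite Cfsg.Spor.He] {p : Cfsg.Spor.He × M5} (hp : p ∈ Gam) : ∃ i < 21504, Spec p i := by
  rw [Gam, ← Subgroup.mem_toSubmonoid, Subgroup.closure_toSubmonoid_of_finite] at hp
  induction hp using Submonoid.closure_induction_left with
  | one => exact ⟨0, by norm_num, spec_one⟩
  | mul_left x hx y _ ih =>
    obtain ⟨s, rfl⟩ := hx
    obtain ⟨i, hi, h⟩ := ih
    exact ⟨_, spec_step hi h s⟩

theorem gam_comm (hinj : Function.Injective cert.ρ) (t : M5)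
    (ht : (t : Matrix (Fin 5) (Fin 5) (ZMod 2)) = Matrix.transvection 0 1 1) :
    Gam ≤ (Subgroup.centralizer ({z} : Set Cfsg.Spor.He)).prod (Subgroup.centralizer ({t} : Set M5)) := by
  refine (Subgroup.closure_le _).2 ?_
  rintro _ ⟨s, rfl⟩
  refine Subgroup.mem_prod.2 ⟨Subgroup.mem_centralizer_singleton_iff.2 ?_,
    Subgroup.mem_centralizer_singleton_iff.2 (A_comm t ht s).symm⟩
  apply hinj
  apply Equiv.ext
  intro c
  apply Fin.ext
  rw [← P_of, ← P_of]
  have hc : (c : ℕ) < 2058 := c.2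
  show P (u s * z) c = P (z * u s) c
  rw [P_mul _ _ hc, P_mul _ _ hc, (gens_at hc).1 s, (gens_at hc).2.1,
    (gens_at (P_lt z hc |> fun h => (gens_at hc).2.1 ▸ h)).1 s]
  have h2 : pk (genPerm s) c < 2058 := (gens_at hc).1 s ▸ P_lt (u s) hc
  rw [(gens_at h2).2.1]
  exact ((gens_at hc).2.2 s).symm

theorem reduce {x : Cfsg.Spor.He} (hz : z * x = x * z) {lv m : ℕ} {w : List ℕ} (hlv : lv < 5) (hm : m ≤ 18)
    (hok : levelOK lv m w = true)
    (hcov : ∀ i < m, ∃ k < lv, Data.anch.getD i 0 = bpt k ∨ Data.anch.getD i 0 = pk Data.gz (bpt k))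
    (h : ∀ k < lv, P x (bpt k) = bpt k) :
    ∃ p ∈ Gam, ∀ k < lv + 1, P (p.1⁻¹ * x) (bpt k) = bpt k := by
  have hb := bpt_lt lv hlv
  have hw := (allIn_iff _ _ _).1 hok (P x (bpt lv)) (Nat.zero_le _) (by have := P_lt x hb; omega)
  rw [sig_inv hz hm (fix_of_base hz hcov hlv.le h) hb] at hw
  simp only [beq_self_eq_true, Bool.not_true, Bool.false_or, List.any_eq_true, Bool.and_eq_true,
    Nat.blt_eq, beq_iff_eq, allIn_iff] at hw
  obtain ⟨i, _, ⟨hi, hpre⟩, hlast⟩ := hw
  obtain ⟨p, hp, hs⟩ := spec_exists i hi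
  refine ⟨p, hp, fun k hk => ?_⟩
  have hk5 : k < 5 := by omega
  have e : P x (bpt k) = P p.1 (bpt k) := by
    rw [hs.1 k hk5]
    rcases Nat.lt_succ_iff_lt_or_eq.1 hk with h1 | rfl
    · rw [h k h1, hpre k (Nat.zero_le _) (by omega)]
    · exact hlast.symm
  rw [P_mul _ _ (bpt_lt k hk5), e, P_inv _ (bpt_lt k hk5)]

theorem centralizer_le (hinj : Function.Injective cert.ρ) (t : M5)
    (ht : (t : Matrix (Fin 5) (Fin 5) (ZMod 2)) = Matrix.transvection 0 1 1) {x : Cfsg.Spor.He}
    (hz : z * x = x * z) : ∃ p ∈ Gam, p.1 = x := by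
  have cm : ∀ p ∈ Gam, z * p.1⁻¹ = p.1⁻¹ * z := fun p hp =>
    (Subgroup.mem_centralizer_singleton_iff.1 (inv_mem (Subgroup.mem_prod.1 (gam_comm hinj t ht hp)).1)).symm
  have next' : ∀ (p : Cfsg.Spor.He × M5) (y : Cfsg.Spor.He), p ∈ Gam → z * y = y * z →
      z * (p.1⁻¹ * y) = p.1⁻¹ * y * z := fun p y hp hy => by
    rw [← mul_assoc, cm p hp, mul_assoc, hy, mul_assoc]
  obtain ⟨p0, m0, f0⟩ := reduce hz (lv := 0) (m := 0) (by norm_num) (by norm_num) level0 (by decide +kernel)
    (by intro k hk; omega)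
  have z1 := next' p0 x m0 hz
  obtain ⟨p1, m1, f1⟩ := reduce z1 (lv := 1) (m := 1) (by norm_num) (by norm_num) level1 (by decide +kernel) f0
  have z2 := next' p1 _ m1 z1
  obtain ⟨p2, m2, f2⟩ := reduce z2 (lv := 2) (m := 2) (by norm_num) (by norm_num) level2 (by decide +kernel) f1
  have z3 := next' p2 _ m2 z2
  obtain ⟨p3, m3, f3⟩ := reduce z3 (lv := 3) (m := 4) (by norm_num) (by norm_num) level3 (by decide +kernel) f2
  have z4 := next' p3 _ m3 z3
  obtain ⟨p4, m4, f4⟩ := reduce z4 (lv := 4) (m := 6) (by norm_num) (by norm_num) level4 (by decide +kernel) f3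
  have e := rigid hinj (next' p4 _ m4 z4) f4
  refine ⟨p0 * p1 * p2 * p3 * p4, mul_mem (mul_mem (mul_mem (mul_mem m0 m1) m2) m3) m4, ?_⟩
  simp only [Prod.fst_mul]
  rw [inv_mul_eq_one] at e
  rw [e]
  group

theorem ker_fst [Finite Cfsg.Spor.He] {p : Cfsg.Spor.He × M5} (hp : p ∈ Gam) (h : p.1 = 1) : p = 1 := by
  obtain ⟨i, hi, hs⟩ := spec_mem hp
  have h0 : i = 0 := by
    by_contra h0
    have he := elems_ok hi
    simp only [elemOK, Bool.and_eq_true, Bool.or_eq_true, beq_iff_eq, h0, false_or, Bool.not_eq_true',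
      ← Bool.not_eq_true, allIn_iff] at he
    exact he.2.1.2 fun k _ hk => by rw [← hs.1 k (by omega), h, P_one]
  subst h0
  exact Prod.ext h (Subtype.ext (hs.2.trans ((rowsMat_congr zero_spec.2).trans rowsMat_one)))

theorem bits_eq : ∀ r < 32, ∀ k < 5, (∀ j < 5, Nat.testBit r j = Nat.testBit (2 ^ k) j) → r = 2 ^ k := by
  decide +kernel

theorem ite_bit : ∀ a b : Bool, ((if a = true then 1 else 0) : ZMod 2) = (if b = true then 1 else 0) → a = b := by
  decide +kernel

theorem ker_snd [Finite Cfsg.Spor.He] (hinj : Function.Injective cert.ρ) (t : M5)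
    (ht : (t : Matrix (Fin 5) (Fin 5) (ZMod 2)) = Matrix.transvection 0 1 1)
    {p : Cfsg.Spor.He × M5} (hp : p ∈ Gam) (h : p.2 = 1) : p = 1 := by
  obtain ⟨i, hi, hs⟩ := spec_mem hp
  have h0 : i = 0 := by
    by_contra h0
    have he := elems_ok hi
    simp only [elemOK, Bool.and_eq_true, Bool.or_eq_true, beq_iff_eq, h0, false_or, Bool.not_eq_true',
      ← Bool.not_eq_true, allIn_iff] at he
    refine he.2.2 fun k _ hk => bits_eq _ (Nat.mod_lt _ (by norm_num)) k (by omega) fun j hj => ?_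
    have e : rowsMat (row i) = rowsMat (fun k => 2 ^ k) := by rw [← hs.2, h, rowsMat_one]; rfl
    exact ite_bit _ _ (congrFun (congrFun e ⟨k, by omega⟩) ⟨j, hj⟩)
  subst h0
  refine Prod.ext (rigid hinj ?_ fun k hk => ?_) h
  · exact (Subgroup.mem_centralizer_singleton_iff.1 (Subgroup.mem_prod.1 (gam_comm hinj t ht hp)).1).symm
  · rw [hs.1 k hk, zero_spec.1 k hk]

theorem param_image {c : ℕ} (hc : paramOK c = true)
    (hns : ∀ v, 1 ≤ v → v < 8 → (orth c 0 v && orth c 1 v && orth c 2 v) = false) :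
    ∃ p ∈ Gam, (p.2 : Matrix (Fin 5) (Fin 5) (ZMod 2)) = rowsMat (param c) := by
  simp only [paramOK, Bool.or_eq_true, Bool.and_eq_true, Nat.blt_eq] at hc
  rcases hc with ⟨hi, hr⟩ | h
  · obtain ⟨p, hp, hs⟩ := spec_exists _ hi
    exact ⟨p, hp, hs.2.trans (rowsMat_congr fun k hk =>
      beq_iff_eq.1 ((allIn_iff _ _ _).1 hr k (Nat.zero_le _) (by omega)))⟩
  · exfalso
    rw [Bool.not_eq_true', ← Bool.not_eq_true] at h
    exact h ((allIn_iff _ _ _).2 fun v h1 h2 => by rw [hns v h1 (by omega)]; rfl)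

theorem centralizer_le_snd (t : M5)
    (ht : (t : Matrix (Fin 5) (Fin 5) (ZMod 2)) = Matrix.transvection 0 1 1) {X : M5} (hX : t * X = X * t) :
    ∃ p ∈ Gam, p.2 = X := by
  have hc : Matrix.transvection 0 1 1 * (X : Matrix (Fin 5) (Fin 5) (ZMod 2)) =
      (X : Matrix (Fin 5) (Fin 5) (ZMod 2)) * Matrix.transvection 0 1 1 := by
    rw [← ht]; exact congrArg Subtype.val hX
  obtain ⟨j, hj, x, hx, hXc, hn1, hn2⟩ := centralizer_param hc X.2
  have h2 : paramOK (34944 + x) = true := (allIn_iff _ _ _).1 params_low x (Nat.zero_le _) (by omega)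
  have h1 : paramOK (16 * j) = true := by
    rcases Nat.lt_or_ge j 1024 with h | h
    · exact (allIn_iff _ _ _).1 params0 j (by omega) (by omega)
    rcases Nat.lt_or_ge j 2048 with h' | h'
    · exact (allIn_iff _ _ _).1 params1 j (by omega) (by omega)
    rcases Nat.lt_or_ge j 3072 with h'' | h''
    · exact (allIn_iff _ _ _).1 params2 j (by omega) (by omega)
    · exact (allIn_iff _ _ _).1 params3 j (by omega) (by omega)
  obtain ⟨p, hp, e⟩ := param_image h1 hn1
  obtain ⟨q, hq, e'⟩ := param_image h2 hn2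
  refine ⟨p * q, mul_mem hp hq, Subtype.ext ?_⟩
  show (p.2 : Matrix (Fin 5) (Fin 5) (ZMod 2)) * (q.2 : Matrix (Fin 5) (Fin 5) (ZMod 2)) = _
  rw [e, e', hXc]

/-- The main isomorphism. -/
theorem iso [Finite Cfsg.Spor.He] (hinj : Function.Injective cert.ρ) (t : M5)
    (ht : (t : Matrix (Fin 5) (Fin 5) (ZMod 2)) = Matrix.transvection 0 1 1) :
    orderOf z = 2 ∧ Nonempty (↥(Subgroup.centralizer ({z} : Set Cfsg.Spor.He)) ≃*
      ↥(Subgroup.centralizer ({t} : Set M5))) := by
  have hle := gam_comm hinj t ht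
  let f : Gam →* ↥(Subgroup.centralizer ({z} : Set Cfsg.Spor.He)) :=
    ((MonoidHom.fst _ _).comp Gam.subtype).codRestrict _ fun p => (Subgroup.mem_prod.1 (hle p.2)).1
  let f' : Gam →* ↥(Subgroup.centralizer ({t} : Set M5)) :=
    ((MonoidHom.snd _ _).comp Gam.subtype).codRestrict _ fun p => (Subgroup.mem_prod.1 (hle p.2)).2
  have hf : Function.Bijective f := by
    refine ⟨(injective_iff_map_eq_one f).2 fun p hp => Subtype.ext (ker_fst p.2 (congrArg Subtype.val hp)),
      fun x => ?_⟩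
    obtain ⟨p, hp, e⟩ := centralizer_le hinj t ht (Subgroup.mem_centralizer_singleton_iff.1 x.2).symm
    exact ⟨⟨p, hp⟩, Subtype.ext e⟩
  have hf' : Function.Bijective f' := by
    refine ⟨(injective_iff_map_eq_one f').2 fun p hp =>
      Subtype.ext (ker_snd hinj t ht p.2 (congrArg Subtype.val hp)), fun x => ?_⟩
    obtain ⟨p, hp, e⟩ := centralizer_le_snd t ht (Subgroup.mem_centralizer_singleton_iff.1 x.2).symm
    exact ⟨⟨p, hp⟩, Subtype.ext e⟩
  refine ⟨orderOf_eq_prime (by rw [pow_two]; exact cert.g_sq 3) fun h => ?_,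
    ⟨(MulEquiv.ofBijective f hf).symm.trans (MulEquiv.ofBijective f' hf')⟩⟩
  have hne : pk Data.gz 2 ≠ 2 := by decide +kernel
  rw [← (gens_at (by norm_num)).2.1, h, P_one] at hne
  exact hne rfl

end CfsgLib.HeTwoB
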