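import Cfsg.Agent.HeTwoBCentralizer.Base
import Cfsg.Agent.H29.CosetCert.He.Orbits

/-! The packed permutations agree with the table of He. -/

set_option autoImplicit false

namespace CfsgLib.HeTwoB

open H29.CosetCert (allIn)
open H29.CosetCert.HeData (orb1 orb2 orb3 orb4)

theorem perms_ok : allIn (fun x => allIn (fun y => perm x y == H29.CosetCert.HeData.T x y) 0 2058) 0 7 = true := by
  decide +kernel

theorem root_ok : allIn (fun y => colour 0 y == (bif y == 0 then 0 else
    bif orb1.testBit y then 1 else bif orb2.testBit y then 2 else
    bif orb3.testBit y then 3 else bif orb4.testBit y then 4 else 5)) 0 2058 = true := by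
  decide +kernel

end CfsgLib.HeTwoB
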